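import Cfsg.Agent.Schur.Lab
import Cfsg.Agent.Schur.Mat
import Cfsg.Agent.Schur.MatCD

/-! The Schur multipliers of M12 and M22. -/

set_option autoImplicit false
set_option maxRecDepth 1000000
set_option maxHeartbeats 0

namespace CF.Schur.MatC

open CF.Comp CF.Comp.Mat CF.Schur.Pc CF.Schur.Mat Cfsg Cfsg.Spor

theorem mdlM12 : Mdl D0 NM12 (el NM12) M12 (List.range 24) :=
  have h : Reps D0 NM12 (el NM12) := reps_el (by decide +kernel)
  mdl_of_faithful h (by decide) (el_mem (m := 6) rfl (mem_M12_of h (by decide +kernel) (by decide +kernel))) (D0_full.faithful _)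

theorem eM12_0_all : CF.Comp.Cov eM12_0_F 4 6 0 := by
  have h := CF.Comp.Cov.zero eM12_0_F 4
  have h := h.blk (b := 4) eM12_0_k0_0 rfl
  have h := h.next (y := 1) rfl rfl
  have h := h.blk (b := 4) eM12_0_k1_0 rfl
  have h := h.next (y := 2) rfl rfl
  have h := h.blk (b := 4) eM12_0_k2_0 rfl
  have h := h.next (y := 3) rfl rfl
  have h := h.blk (b := 4) eM12_0_k3_0 rfl
  have h := h.next (y := 4) rfl rfl
  have h := h.blk (b := 4) eM12_0_k4_0 rfl
  have h := h.next (y := 5) rfl rfl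
  have h := h.blk (b := 4) eM12_0_k5_0 rfl
  have h := h.next (y := 6) rfl rfl
  exact h

theorem eM12_0 : Enum RM12_0 [] (gensW 3) 72 :=
  ⟨eM12_0_cols, eM12_0_ch, eM12_0_L, eM12_0_H, eM12_0_pb.1, eM12_0_e.get, [(nat_lit 0), (nat_lit 1), (nat_lit 3), (nat_lit 4), (nat_lit 5), (nat_lit 6)], (nat_lit 1), (nat_lit 6), eM12_0_rots, eM12_0_hcs,
    (nat_lit 73), (nat_lit 6), (nat_lit 128), (nat_lit 64), (nat_lit 8192), (nat_lit 8191), (nat_lit 8), (nat_lit 255), (nat_lit 18), (nat_lit 262143), (nat_lit 1), (nat_lit 4),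
    fun _ _ => rfl, fun _ => rfl, fun _ _ => rfl, by decide +kernel, eM12_0_all.1⟩

theorem eM12_1_all : CF.Comp.Cov eM12_1_F 4 7 0 := by
  have h := CF.Comp.Cov.zero eM12_1_F 4
  have h := h.blk (b := 4) eM12_1_k0_0 rfl
  have h := h.next (y := 1) rfl rfl
  have h := h.blk (b := 4) eM12_1_k1_0 rfl
  have h := h.next (y := 2) rfl rfl
  have h := h.blk (b := 4) eM12_1_k2_0 rfl
  have h := h.next (y := 3) rfl rfl
  have h := h.blk (b := 4) eM12_1_k3_0 rfl
  have h := h.next (y := 4) rfl rfl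
  have h := h.blk (b := 4) eM12_1_k4_0 rfl
  have h := h.next (y := 5) rfl rfl
  have h := h.blk (b := 4) eM12_1_k5_0 rfl
  have h := h.next (y := 6) rfl rfl
  have h := h.blk (b := 4) eM12_1_k6_0 rfl
  have h := h.next (y := 7) rfl rfl
  exact h

theorem eM12_1 : Enum RM12_1 (gensW 3) (gensW 4) 10 :=
  ⟨eM12_1_cols, eM12_1_ch, eM12_1_L, eM12_1_H, eM12_1_pb.1, eM12_1_e.get, [(nat_lit 0), (nat_lit 1), (nat_lit 3), (nat_lit 4), (nat_lit 5), (nat_lit 6), (nat_lit 7)], (nat_lit 9), (nat_lit 6), eM12_1_rots, eM12_1_hcs,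
    (nat_lit 11), (nat_lit 7), (nat_lit 16), (nat_lit 32), (nat_lit 512), (nat_lit 1023), (nat_lit 8), (nat_lit 255), (nat_lit 13), (nat_lit 8191), (nat_lit 1), (nat_lit 4),
    fun _ _ => rfl, fun _ => rfl, fun _ _ => rfl, by decide +kernel, eM12_1_all.1⟩

theorem eM12_2_all : CF.Comp.Cov eM12_2_F 4 8 0 := by
  have h := CF.Comp.Cov.zero eM12_2_F 4
  have h := h.blk (b := 4) eM12_2_k0_0 rfl
  have h := h.next (y := 1) rfl rfl
  have h := h.blk (b := 4) eM12_2_k1_0 rfl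
  have h := h.next (y := 2) rfl rfl
  have h := h.blk (b := 4) eM12_2_k2_0 rfl
  have h := h.next (y := 3) rfl rfl
  have h := h.blk (b := 4) eM12_2_k3_0 rfl
  have h := h.next (y := 4) rfl rfl
  have h := h.blk (b := 4) eM12_2_k4_0 rfl
  have h := h.next (y := 5) rfl rfl
  have h := h.blk (b := 4) eM12_2_k5_0 rfl
  have h := h.next (y := 6) rfl rfl
  have h := h.blk (b := 4) eM12_2_k6_0 rfl
  have h := h.next (y := 7) rfl rfl
  have h := h.blk (b := 4) eM12_2_k7_0 rfl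
  have h := h.next (y := 8) rfl rfl
  exact h

theorem eM12_2 : Enum RM12_2 (gensW 4) (gensW 5) 11 :=
  ⟨eM12_2_cols, eM12_2_ch, eM12_2_L, eM12_2_H, eM12_2_pb.1, eM12_2_e.get, [(nat_lit 0), (nat_lit 1), (nat_lit 3), (nat_lit 4), (nat_lit 5), (nat_lit 6), (nat_lit 7), (nat_lit 9)], (nat_lit 25), (nat_lit 6), eM12_2_rots, eM12_2_hcs,
    (nat_lit 12), (nat_lit 8), (nat_lit 16), (nat_lit 64), (nat_lit 1024), (nat_lit 1023), (nat_lit 8), (nat_lit 255), (nat_lit 15), (nat_lit 32767), (nat_lit 1), (nat_lit 4),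
    fun _ _ => rfl, fun _ => rfl, fun _ _ => rfl, by decide +kernel, eM12_2_all.1⟩

theorem eM12_3_all : CF.Comp.Cov eM12_3_F 4 9 0 := by
  have h := CF.Comp.Cov.zero eM12_3_F 4
  have h := h.blk (b := 4) eM12_3_k0_0 rfl
  have h := h.next (y := 1) rfl rfl
  have h := h.blk (b := 4) eM12_3_k1_0 rfl
  have h := h.next (y := 2) rfl rfl
  have h := h.blk (b := 4) eM12_3_k2_0 rfl
  have h := h.next (y := 3) rfl rfl
  have h := h.blk (b := 4) eM12_3_k3_0 rfl
  have h := h.next (y := 4) rfl rfl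
  have h := h.blk (b := 4) eM12_3_k4_0 rfl
  have h := h.next (y := 5) rfl rfl
  have h := h.blk (b := 4) eM12_3_k5_0 rfl
  have h := h.next (y := 6) rfl rfl
  have h := h.blk (b := 4) eM12_3_k6_0 rfl
  have h := h.next (y := 7) rfl rfl
  have h := h.blk (b := 4) eM12_3_k7_0 rfl
  have h := h.next (y := 8) rfl rfl
  have h := h.blk (b := 4) eM12_3_k8_0 rfl
  have h := h.next (y := 9) rfl rfl
  exact h

theorem eM12_3 : Enum relsM12 (gensW 5) (gensW 6) 12 :=
  ⟨eM12_3_cols, eM12_3_ch, eM12_3_L, eM12_3_H, eM12_3_pb.1, eM12_3_e.get, [(nat_lit 0), (nat_lit 1), (nat_lit 3), (nat_lit 4), (nat_lit 5), (nat_lit 6), (nat_lit 7), (nat_lit 9), (nat_lit 11)], (nat_lit 57), (nat_lit 6), eM12_3_rots, eM12_3_hcs,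
    (nat_lit 13), (nat_lit 9), (nat_lit 16), (nat_lit 64), (nat_lit 1024), (nat_lit 1023), (nat_lit 8), (nat_lit 255), (nat_lit 15), (nat_lit 32767), (nat_lit 1), (nat_lit 4),
    fun _ _ => rfl, fun _ => rfl, fun _ _ => rfl, by decide +kernel, eM12_3_all.1⟩

theorem bndM12 {K : Type*} [Group K] {g : ℕ → K} (hr : ∀ r ∈ relsM12, ev g r = 1) : Bound g (gensW 6) 95040 :=
  (eM12_3.bound (rels_sub hr (by decide +kernel))
    (eM12_2.bound (rels_sub hr (by decide +kernel))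
    (eM12_1.bound (rels_sub hr (by decide +kernel))
    (eM12_0.bound (rels_sub hr (by decide +kernel))
    (bound_nil _)))))

theorem mM12 : type_of% mdlM12 := mdlM12

noncomputable def SM12 : List Lvl := [⟨(nat_lit 0), [[(nat_lit 11)],
  [(nat_lit 9)],
  [(nat_lit 7)],
  [(nat_lit 5)],
  [(nat_lit 3)],
  [(nat_lit 1)]], (nat_lit 3)⟩,
  ⟨(nat_lit 1), [[(nat_lit 9)],
  [(nat_lit 7)],
  [(nat_lit 5)],
  [(nat_lit 3)],
  [(nat_lit 1)]], (nat_lit 2)⟩,
  ⟨(nat_lit 2), [[(nat_lit 7)],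
  [(nat_lit 5)],
  [(nat_lit 3)],
  [(nat_lit 1)]], (nat_lit 3)⟩,
  ⟨(nat_lit 5), [[(nat_lit 5)],
  [(nat_lit 3)],
  [(nat_lit 1)]], (nat_lit 2)⟩,
  ⟨(nat_lit 4), [[(nat_lit 1), (nat_lit 5), (nat_lit 5)],
  [(nat_lit 5), (nat_lit 3), (nat_lit 5), (nat_lit 3)]], (nat_lit 2)⟩]


theorem rM12_0 : allFrom (relNo (sameW NM12 24 5) relsM12) 0 18 = true := by decide +kernel

theorem rM12 : ∀ j < 18, relNo (sameW NM12 24 5) relsM12 j = true := by
  have h : ∀ j < 0, relNo (sameW NM12 24 5) relsM12 j = true := by simp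
  have h := forall_lt_add h (allFrom_iff.1 rM12_0)
  exact h

theorem presM12 : Presents relsM12 6 fun i => (⟨_, mM12.mem i⟩ : M12) :=
  (mM12.presents (mM12.sameW (k := 5) (by decide)) (bndM12 (ug_rels _)) rM12 (by decide +kernel) (ch := SM12) card_M12
    (by decide) (by decide +kernel))

noncomputable def LM12c2 : LD := ⟨KM12c2, (nat_lit 0), AM12c2, BM12c2⟩

noncomputable def TM12c2 : List (List Nat) := [[],
  [],
  [],
  [],
  [],
  [],
  [],
  [],
  [],
  [],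
  [],
  [],
  [],
  [],
  [],
  [(nat_lit 13)],
  [],
  []]

noncomputable def UM12c2 : List (List Nat) := [[(nat_lit 26), (nat_lit 7), (nat_lit 31), (nat_lit 9), (nat_lit 9), (nat_lit 18), (nat_lit 11), (nat_lit 2), (nat_lit 2), (nat_lit 2), (nat_lit 4), (nat_lit 4), (nat_lit 5), (nat_lit 13), (nat_lit 19), (nat_lit 28)]]

theorem wM12c2 : Wf 12 KM12c2 := wf_of_wfAll (by decide +kernel)

theorem rM12c2_0 : allFrom (tailAt (lsame ar2 LM12c2 (sameA KM12c2 12 4)) relsM12 TM12c2) 0 18 = true := by decide +kernel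

theorem rM12c2 : ∀ j < 18, tailAt (lsame ar2 LM12c2 (sameA KM12c2 12 4)) relsM12 TM12c2 j = true := by
  have h : ∀ j < 0, tailAt (lsame ar2 LM12c2 (sameA KM12c2 12 4)) relsM12 TM12c2 j = true := by simp
  have h := forall_lt_add h (allFrom_iff.1 rM12c2_0)
  exact h

theorem cM12c2 : covOK (lsame ar2 LM12c2 (sameA KM12c2 12 4)) 6 1 relsM12 TM12c2 UM12c2 = true := by decide +kernel

theorem domM12c2 : Dom M12 (Multiplicative (ZMod 2)) :=
  dom_lab (L := LM12c2) presM12 wM12c2 (pf_of_sameA wM12c2 (k := 4) (by decide)) (by decide +kernel) (by decide +kernel) cM12c2 rM12c2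
    (by decide +kernel)

theorem mdlM22 : Mdl D0 NM22 (el NM22) M22 (List.range 24) :=
  have h : Reps D0 NM22 (el NM22) := reps_el (by decide +kernel)
  mdl_of_faithful h (by decide) (el_mem (m := 6) rfl (mem_M22_of h (by decide +kernel) (by decide +kernel) (by decide +kernel))) (D0_full.faithful _)

theorem eM22_0_all : CF.Comp.Cov eM22_0_F 4 5 0 := by
  have h := CF.Comp.Cov.zero eM22_0_F 4
  have h := h.blk (b := 4) eM22_0_k0_0 rfl
  have h := h.next (y := 1) rfl rfl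
  have h := h.blk (b := 4) eM22_0_k1_0 rfl
  have h := h.next (y := 2) rfl rfl
  have h := h.blk (b := 4) eM22_0_k2_0 rfl
  have h := h.next (y := 3) rfl rfl
  have h := h.blk (b := 4) eM22_0_k3_0 rfl
  have h := h.next (y := 4) rfl rfl
  have h := h.blk (b := 4) eM22_0_k4_0 rfl
  have h := h.next (y := 5) rfl rfl
  exact h

theorem eM22_0 : Enum RM22_0 [] (gensW 3) 48 :=
  ⟨eM22_0_cols, eM22_0_ch, eM22_0_L, eM22_0_H, eM22_0_pb.1, eM22_0_e.get, [(nat_lit 0), (nat_lit 1), (nat_lit 3), (nat_lit 4), (nat_lit 5)], (nat_lit 5), (nat_lit 6), eM22_0_rots, eM22_0_hcs,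
    (nat_lit 49), (nat_lit 5), (nat_lit 64), (nat_lit 32), (nat_lit 2048), (nat_lit 4095), (nat_lit 8), (nat_lit 255), (nat_lit 15), (nat_lit 32767), (nat_lit 1), (nat_lit 4),
    fun _ _ => rfl, fun _ => rfl, fun _ _ => rfl, by decide +kernel, eM22_0_all.1⟩

theorem eM22_1_all : CF.Comp.Cov eM22_1_F 4 6 0 := by
  have h := CF.Comp.Cov.zero eM22_1_F 4
  have h := h.blk (b := 4) eM22_1_k0_0 rfl
  have h := h.next (y := 1) rfl rfl
  have h := h.blk (b := 4) eM22_1_k1_0 rfl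
  have h := h.next (y := 2) rfl rfl
  have h := h.blk (b := 4) eM22_1_k2_0 rfl
  have h := h.next (y := 3) rfl rfl
  have h := h.blk (b := 4) eM22_1_k3_0 rfl
  have h := h.next (y := 4) rfl rfl
  have h := h.blk (b := 4) eM22_1_k4_0 rfl
  have h := h.next (y := 5) rfl rfl
  have h := h.blk (b := 4) eM22_1_k5_0 rfl
  have h := h.next (y := 6) rfl rfl
  exact h

theorem eM22_1 : Enum RM22_1 (gensW 3) (gensW 4) 20 :=
  ⟨eM22_1_cols, eM22_1_ch, eM22_1_L, eM22_1_H, eM22_1_pb.1, eM22_1_e.get, [(nat_lit 0), (nat_lit 1), (nat_lit 3), (nat_lit 4), (nat_lit 5), (nat_lit 7)], (nat_lit 13), (nat_lit 6), eM22_1_rots, eM22_1_hcs,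
    (nat_lit 21), (nat_lit 6), (nat_lit 32), (nat_lit 32), (nat_lit 1024), (nat_lit 2047), (nat_lit 8), (nat_lit 255), (nat_lit 14), (nat_lit 16383), (nat_lit 1), (nat_lit 4),
    fun _ _ => rfl, fun _ => rfl, fun _ _ => rfl, by decide +kernel, eM22_1_all.1⟩

theorem eM22_2_all : CF.Comp.Cov eM22_2_F 4 7 0 := by
  have h := CF.Comp.Cov.zero eM22_2_F 4
  have h := h.blk (b := 4) eM22_2_k0_0 rfl
  have h := h.next (y := 1) rfl rfl
  have h := h.blk (b := 4) eM22_2_k1_0 rfl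
  have h := h.next (y := 2) rfl rfl
  have h := h.blk (b := 4) eM22_2_k2_0 rfl
  have h := h.next (y := 3) rfl rfl
  have h := h.blk (b := 4) eM22_2_k3_0 rfl
  have h := h.next (y := 4) rfl rfl
  have h := h.blk (b := 4) eM22_2_k4_0 rfl
  have h := h.next (y := 5) rfl rfl
  have h := h.blk (b := 4) eM22_2_k5_0 rfl
  have h := h.next (y := 6) rfl rfl
  have h := h.blk (b := 4) eM22_2_k6_0 rfl
  have h := h.next (y := 7) rfl rfl
  exact h

theorem eM22_2 : Enum RM22_2 (gensW 4) (gensW 5) 21 :=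
  ⟨eM22_2_cols, eM22_2_ch, eM22_2_L, eM22_2_H, eM22_2_pb.1, eM22_2_e.get, [(nat_lit 0), (nat_lit 1), (nat_lit 3), (nat_lit 4), (nat_lit 5), (nat_lit 7), (nat_lit 9)], (nat_lit 29), (nat_lit 6), eM22_2_rots, eM22_2_hcs,
    (nat_lit 22), (nat_lit 7), (nat_lit 32), (nat_lit 64), (nat_lit 2048), (nat_lit 2047), (nat_lit 8), (nat_lit 255), (nat_lit 15), (nat_lit 32767), (nat_lit 1), (nat_lit 4),
    fun _ _ => rfl, fun _ => rfl, fun _ _ => rfl, by decide +kernel, eM22_2_all.1⟩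

theorem eM22_3_all : CF.Comp.Cov eM22_3_F 4 8 0 := by
  have h := CF.Comp.Cov.zero eM22_3_F 4
  have h := h.blk (b := 4) eM22_3_k0_0 rfl
  have h := h.next (y := 1) rfl rfl
  have h := h.blk (b := 4) eM22_3_k1_0 rfl
  have h := h.next (y := 2) rfl rfl
  have h := h.blk (b := 4) eM22_3_k2_0 rfl
  have h := h.next (y := 3) rfl rfl
  have h := h.blk (b := 4) eM22_3_k3_0 rfl
  have h := h.next (y := 4) rfl rfl
  have h := h.blk (b := 4) eM22_3_k4_0 rfl
  have h := h.next (y := 5) rfl rfl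
  have h := h.blk (b := 4) eM22_3_k5_0 rfl
  have h := h.next (y := 6) rfl rfl
  have h := h.blk (b := 4) eM22_3_k6_0 rfl
  have h := h.next (y := 7) rfl rfl
  have h := h.blk (b := 4) eM22_3_k7_0 rfl
  have h := h.next (y := 8) rfl rfl
  exact h

theorem eM22_3 : Enum relsM22 (gensW 5) (gensW 6) 22 :=
  ⟨eM22_3_cols, eM22_3_ch, eM22_3_L, eM22_3_H, eM22_3_pb.1, eM22_3_e.get, [(nat_lit 0), (nat_lit 1), (nat_lit 3), (nat_lit 4), (nat_lit 5), (nat_lit 7), (nat_lit 9), (nat_lit 11)], (nat_lit 61), (nat_lit 6), eM22_3_rots, eM22_3_hcs,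
    (nat_lit 23), (nat_lit 8), (nat_lit 32), (nat_lit 64), (nat_lit 2048), (nat_lit 2047), (nat_lit 8), (nat_lit 255), (nat_lit 16), (nat_lit 65535), (nat_lit 1), (nat_lit 4),
    fun _ _ => rfl, fun _ => rfl, fun _ _ => rfl, by decide +kernel, eM22_3_all.1⟩

theorem bndM22 {K : Type*} [Group K] {g : ℕ → K} (hr : ∀ r ∈ relsM22, ev g r = 1) : Bound g (gensW 6) 443520 :=
  (eM22_3.bound (rels_sub hr (by decide +kernel))
    (eM22_2.bound (rels_sub hr (by decide +kernel))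
    (eM22_1.bound (rels_sub hr (by decide +kernel))
    (eM22_0.bound (rels_sub hr (by decide +kernel))
    (bound_nil _)))))

theorem mM22 : type_of% mdlM22 := mdlM22

noncomputable def SM22 : List Lvl := [⟨(nat_lit 1), [[(nat_lit 11)],
  [(nat_lit 9)],
  [(nat_lit 7)],
  [(nat_lit 5)],
  [(nat_lit 3)],
  [(nat_lit 1)]], (nat_lit 3)⟩,
  ⟨(nat_lit 2), [[(nat_lit 9)],
  [(nat_lit 7)],
  [(nat_lit 5)],
  [(nat_lit 3)],
  [(nat_lit 1)]], (nat_lit 3)⟩,
  ⟨(nat_lit 3), [[(nat_lit 7)],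
  [(nat_lit 5)],
  [(nat_lit 3)],
  [(nat_lit 1)]], (nat_lit 3)⟩,
  ⟨(nat_lit 4), [[(nat_lit 5)],
  [(nat_lit 3)],
  [(nat_lit 1)]], (nat_lit 2)⟩,
  ⟨(nat_lit 5), [[(nat_lit 1), (nat_lit 3), (nat_lit 5)]], (nat_lit 2)⟩]


theorem rM22_0 : allFrom (relNo (sameW NM22 24 5) relsM22) 0 22 = true := by decide +kernel

theorem rM22 : ∀ j < 22, relNo (sameW NM22 24 5) relsM22 j = true := by
  have h : ∀ j < 0, relNo (sameW NM22 24 5) relsM22 j = true := by simp
  have h := forall_lt_add h (allFrom_iff.1 rM22_0)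
  exact h

theorem presM22 : Presents relsM22 6 fun i => (⟨_, mM22.mem i⟩ : M22) :=
  (mM22.presents (mM22.sameW (k := 5) (by decide)) (bndM22 (ug_rels _)) rM22 (by decide +kernel) (ch := SM22) card_M22
    (by decide) (by decide +kernel))

noncomputable def LM22c3 : LD := ⟨KM22c3, (nat_lit 0), AM22c3, BM22c3⟩

noncomputable def TM22c3 : List (List Nat) := [[],
  [],
  [],
  [],
  [],
  [],
  [],
  [],
  [],
  [],
  [],
  [],
  [],
  [],
  [(nat_lit 13)],
  [],
  [],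
  [],
  [],
  [],
  [],
  []]

noncomputable def UM22c3 : List (List Nat) := [[(nat_lit 29), (nat_lit 18), (nat_lit 2), (nat_lit 2), (nat_lit 15), (nat_lit 26)]]

theorem wM22c3 : Wf 231 KM22c3 := wf_of_wfAll (by decide +kernel)

theorem rM22c3_0 : allFrom (tailAt (lsame ar3 LM22c3 (sameA KM22c3 231 8)) relsM22 TM22c3) 0 22 = true := by decide +kernel

theorem rM22c3 : ∀ j < 22, tailAt (lsame ar3 LM22c3 (sameA KM22c3 231 8)) relsM22 TM22c3 j = true := by
  have h : ∀ j < 0, tailAt (lsame ar3 LM22c3 (sameA KM22c3 231 8)) relsM22 TM22c3 j = true := by simp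
  have h := forall_lt_add h (allFrom_iff.1 rM22c3_0)
  exact h

theorem cM22c3 : covOK (lsame ar3 LM22c3 (sameA KM22c3 231 8)) 6 1 relsM22 TM22c3 UM22c3 = true := by decide +kernel

theorem domM22c3 : Dom M22 (Multiplicative (ZMod 3)) :=
  dom_lab (L := LM22c3) presM22 wM22c3 (pf_of_sameA wM22c3 (k := 8) (by decide)) (by decide +kernel) (by decide +kernel) cM22c3 rM22c3
    (by decide +kernel)

noncomputable def LM22c4 : LD := ⟨KM22c4, (nat_lit 0), AM22c4, BM22c4⟩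

noncomputable def TM22c4 : List (List Nat) := [[(nat_lit 13), (nat_lit 13)],
  [],
  [(nat_lit 13), (nat_lit 13)],
  [(nat_lit 13), (nat_lit 13)],
  [(nat_lit 13)],
  [(nat_lit 13), (nat_lit 13)],
  [],
  [],
  [],
  [(nat_lit 13), (nat_lit 13), (nat_lit 13)],
  [(nat_lit 13)],
  [(nat_lit 13), (nat_lit 13)],
  [],
  [(nat_lit 13), (nat_lit 13), (nat_lit 13)],
  [],
  [(nat_lit 13)],
  [],
  [],
  [],
  [],
  [],
  []]

noncomputable def UM22c4 : List (List Nat) := [[(nat_lit 21), (nat_lit 10), (nat_lit 20), (nat_lit 3)]]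

theorem wM22c4 : Wf 1232 KM22c4 := wf_of_wfAll (by decide +kernel)

theorem rM22c4_0 : allFrom (tailAt (lsame ar4 LM22c4 (sameA KM22c4 1232 11)) relsM22 TM22c4) 0 22 = true := by decide +kernel

theorem rM22c4 : ∀ j < 22, tailAt (lsame ar4 LM22c4 (sameA KM22c4 1232 11)) relsM22 TM22c4 j = true := by
  have h : ∀ j < 0, tailAt (lsame ar4 LM22c4 (sameA KM22c4 1232 11)) relsM22 TM22c4 j = true := by simp
  have h := forall_lt_add h (allFrom_iff.1 rM22c4_0)
  exact h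

theorem cM22c4 : covOK (lsame ar4 LM22c4 (sameA KM22c4 1232 11)) 6 1 relsM22 TM22c4 UM22c4 = true := by decide +kernel

theorem domM22c4 : Dom M22 (Multiplicative (ZMod 4)) :=
  dom_lab (L := LM22c4) presM22 wM22c4 (pf_of_sameA wM22c4 (k := 11) (by decide)) (by decide +kernel) (by decide +kernel) cM22c4 rM22c4
    (by decide +kernel)

theorem schurM12 : HasCyclicSchurMultiplier M12 2 := domM12c2.hasCyclic multM12

theorem schurM22 : HasCyclicSchurMultiplier M22 12 := (domM22c3.zmod_mul domM22c4 (by decide)).hasCyclic multM22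

end CF.Schur.MatC
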