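import Cfsg.Agent.Recog.DC

/-! Every element of a non-split double cover of an alternating group is a commutator. -/

set_option autoImplicit false

namespace CF.Schur.DCC

open Equiv Equiv.Perm CF.Recog

variable {Ω : Type*} [Fintype Ω] [DecidableEq Ω]

/-- a balanced factorisation into two involutions -/
def Fac (x : Perm Ω) : Prop :=
  ∃ s t : Perm Ω, s * s = 1 ∧ t * t = 1 ∧ x = s * t ∧ (∀ i, x i = i → s i = i ∧ t i = i) ∧
    s.support.card = t.support.card + (if sign x = 1 then 0 else 2) ∧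
    (x ≠ 1 → ∃ q, t q = q ∧ s q ≠ q)

theorem card_supp_add {α : Type*} [Fintype α] [DecidableEq α] (f : Perm α) (S : Finset α)
    (h : ∀ i, f i = i ↔ i ∈ S) : f.support.card + S.card = Fintype.card α := by
  have : f.support = Sᶜ := by
    ext i; simp [h]
  rw [this, Finset.card_compl]
  have := S.card_le_univ
  omega

theorem fac_rot (n : ℕ) : Fac (finRotate (n + 2)) := by
  have hv : ∀ i : Fin (n + 2), ((Fin.revPerm * finRotate (n + 2) : Perm (Fin (n + 2))) i).val =
      if i.val = n + 1 then n + 1 else n - i.val := by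
    intro i
    simp only [Perm.mul_apply, finRotate_apply, Fin.revPerm_apply, Fin.val_rev, Fin.val_add_one,
      Fin.ext_iff, Fin.val_last]
    split_ifs <;> omega
  have hs : (Fin.revPerm : Perm (Fin (n + 2))) * Fin.revPerm = 1 := by
    ext i; simp
  refine ⟨Fin.revPerm, Fin.revPerm * finRotate (n + 2), hs, ?_, by rw [← mul_assoc, hs, one_mul],
    ?_, ?_, fun _ => ⟨Fin.last _, ?_, ?_⟩⟩
  · ext i
    rw [Perm.mul_apply, hv, hv]
    have := i.2
    simp only [Perm.one_apply]
    split_ifs <;> omega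
  · intro i hi
    have : i ∈ (finRotate (n + 2)).support := by rw [support_finRotate]; exact Finset.mem_univ _
    exact absurd hi (mem_support.1 this)
  · rw [sign_finRotate]
    rcases Nat.even_or_odd' n with ⟨k, rfl | rfl⟩
    · have e1 := card_supp_add (Fin.revPerm : Perm (Fin (2 * k + 2))) ∅ (fun i => by
        simp only [Fin.revPerm_apply, Fin.ext_iff, Fin.val_rev, Finset.notMem_empty, iff_false]
        have := i.2
        omega)
      have e2 := card_supp_add (Fin.revPerm * finRotate (2 * k + 2) : Perm (Fin (2 * k + 2)))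
        {Fin.last _, ⟨k, by omega⟩} (fun i => by
          rw [Fin.ext_iff, hv]
          simp only [Finset.mem_insert, Finset.mem_singleton, Fin.ext_iff, Fin.val_last]
          have := i.2
          split_ifs <;> omega)
      rw [Finset.card_pair (by simp [Fin.ext_iff]; omega)] at e2
      rw [if_neg (by rw [show 2 * k + 2 - 1 = 2 * k + 1 by omega, pow_succ, pow_mul]; simp)]
      simp only [Finset.card_empty] at e1
      omega
    · have e1 := card_supp_add (Fin.revPerm : Perm (Fin (2 * k + 1 + 2))) {⟨k + 1, by omega⟩}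
        (fun i => by
          simp only [Fin.revPerm_apply, Fin.ext_iff, Fin.val_rev, Finset.mem_singleton]
          have := i.2
          omega)
      have e2 := card_supp_add (Fin.revPerm * finRotate (2 * k + 1 + 2) :
        Perm (Fin (2 * k + 1 + 2))) {Fin.last _} (fun i => by
          rw [Fin.ext_iff, hv]
          simp only [Finset.mem_singleton, Fin.ext_iff, Fin.val_last]
          have := i.2
          split_ifs <;> omega)
      rw [if_pos (by rw [show 2 * k + 1 + 2 - 1 = 2 * (k + 1) by omega, pow_mul]; simp)]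
      simp only [Finset.card_singleton] at e1 e2
      omega
  · rw [Fin.ext_iff, hv]; simp
  · simp [Fin.ext_iff]

theorem Fac.conj {x : Perm Ω} (h : Fac x) (g : Perm Ω) : Fac (g * x * g⁻¹) := by
  obtain ⟨s, t, hs, ht, e, hf, hc, hq⟩ := h
  refine ⟨g * s * g⁻¹, g * t * g⁻¹, ?_, ?_, by rw [e]; group, fun i hi => ?_, ?_, fun h1 => ?_⟩
  · calc _ = g * (s * s) * g⁻¹ := by group
      _ = 1 := by rw [hs]; group
  · calc _ = g * (t * t) * g⁻¹ := by group
      _ = 1 := by rw [ht]; group
  · have : x (g⁻¹ i) = g⁻¹ i := by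
      rw [eq_comm, Perm.inv_eq_iff_eq]; exact hi.symm
    obtain ⟨a, b⟩ := hf _ this
    rw [Perm.mul_apply, Perm.mul_apply, Perm.mul_apply, Perm.mul_apply, a, b]
    simp
  · rw [card_support_conj, card_support_conj, hc]
    have : sign (g * x * g⁻¹) = sign x := by
      rw [Perm.sign_mul, Perm.sign_mul, sign_inv, mul_right_comm, Int.units_mul_self, one_mul]
    rw [this]
  · obtain ⟨q, a, b⟩ := hq (fun e => h1 (by rw [e]; group))
    exact ⟨g q, by simp [Perm.mul_apply, a], by simpa [Perm.mul_apply] using b⟩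

theorem Fac.extend {α : Type*} [Fintype α] [DecidableEq α] {x : Perm α} (h : Fac x)
    {p : Ω → Prop} [DecidablePred p] (f : α ≃ Subtype p) : Fac (x.extendDomain f) := by
  obtain ⟨s, t, hs, ht, e, hf, hc, hq⟩ := h
  refine ⟨s.extendDomain f, t.extendDomain f, by rw [extendDomain_mul, hs, extendDomain_one],
    by rw [extendDomain_mul, ht, extendDomain_one], by rw [extendDomain_mul, ← e],
    fun i hi => ?_, ?_, fun h1 => ?_⟩
  · by_cases hp : p i
    · obtain ⟨j, rfl⟩ : ∃ j, (f j).1 = i := ⟨f.symm ⟨i, hp⟩, by simp⟩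
      rw [extendDomain_apply_image] at hi
      obtain ⟨a, b⟩ := hf j (f.injective (Subtype.ext hi))
      rw [extendDomain_apply_image, extendDomain_apply_image, a, b]
      exact ⟨rfl, rfl⟩
    · exact ⟨extendDomain_apply_not_subtype _ _ hp, extendDomain_apply_not_subtype _ _ hp⟩
  · rw [card_support_extend_domain, card_support_extend_domain, sign_extendDomain, hc]
  · obtain ⟨q, a, b⟩ := hq (fun e => h1 (by rw [e, extendDomain_one]))
    refine ⟨(f q).1, by rw [extendDomain_apply_image, a], ?_⟩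
    rw [extendDomain_apply_image]
    exact fun e => b (f.injective (Subtype.ext e))

theorem fac_cycle {c : Perm Ω} (hc : c.IsCycle) : Fac c := by
  obtain ⟨n, hn⟩ : ∃ n, c.support.card = n + 2 := ⟨c.support.card - 2, by
    have := hc.two_le_card_support; omega⟩
  let f : Fin (n + 2) ≃ {x // x ∈ c.support} := (Finset.equivFinOfCardEq hn).symm
  have h1 := (isCycle_finRotate (n := n)).extendDomain f
  obtain ⟨g, hg⟩ := isConj_iff.1 (h1.isConj hc (by
    rw [card_support_extend_domain, support_finRotate, hn]; simp))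
  rw [← hg]
  exact ((fac_rot n).extend f).conj g

theorem fac_step {σ τ : Perm Ω} (hd : σ.Disjoint τ) (hc : σ.IsCycle) (h1 : Fac τ) (h2 : Fac τ⁻¹) :
    Fac (σ * τ) := by
  obtain ⟨s, t, hs, ht, e, hf, hk, hq⟩ := fac_cycle hc
  obtain ⟨q, q1, q2⟩ := hq hc.ne_one
  have key : ∀ s' t' : Perm Ω, s' * s' = 1 → t' * t' = 1 → τ = s' * t' →
      (∀ i, τ i = i → s' i = i ∧ t' i = i) →
      s.support.card + s'.support.card = t.support.card + t'.support.card +
        (if sign (σ * τ) = 1 then 0 else 2) → Fac (σ * τ) := by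
    intro s' t' hs' ht' e' hf' hk'
    have dj : ∀ u v : Perm Ω, (∀ i, σ i = i → u i = i) → (∀ i, τ i = i → v i = i) →
        u.Disjoint v := fun u v a b i => (hd i).imp (a i) (b i)
    have d1 := dj s s' (fun i h => (hf i h).1) (fun i h => (hf' i h).1)
    have d2 := dj t t' (fun i h => (hf i h).2) (fun i h => (hf' i h).2)
    have d3 := dj t s' (fun i h => (hf i h).2) (fun i h => (hf' i h).1)
    have hσq : σ q ≠ q := fun h => q2 (hf q h).1
    have hτq := hf' q ((hd q).resolve_left hσq)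
    refine ⟨s * s', t * t', ?_, ?_, ?_, fun i hi => ?_, ?_, fun _ => ⟨q, ?_, ?_⟩⟩
    · rw [mul_assoc, ← mul_assoc s', ← d1.commute.eq, mul_assoc, hs', mul_one, hs]
    · rw [mul_assoc, ← mul_assoc t', ← d2.commute.eq, mul_assoc, ht', mul_one, ht]
    · rw [mul_assoc, ← mul_assoc s', ← d3.commute.eq, e, e']; simp only [mul_assoc]
    · obtain ⟨a, b⟩ := (hd.mul_apply_eq_iff).1 hi
      simp [Perm.mul_apply, hf i a, hf' i b]
    · rw [d1.card_support_mul, d2.card_support_mul, hk']
    · rw [Perm.mul_apply, hτq.2, q1]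
    · rw [Perm.mul_apply, hτq.1]; exact q2
  by_cases hb : sign σ = -1 ∧ sign τ = -1
  · obtain ⟨s', t', hs', ht', e', hf', hk', -⟩ := h2
    refine key t' s' ht' hs' ?_ (fun i h => (hf' i ?_).symm) ?_
    · rw [← inv_inj, e', mul_inv_rev, inv_eq_of_mul_eq_one_right hs', inv_eq_of_mul_eq_one_right ht']
    · rw [Perm.inv_eq_iff_eq, h]
    · rw [sign_inv, hb.2] at hk'
      rw [hb.1] at hk
      rw [Perm.sign_mul, hb.1, hb.2]
      simp at hk hk' ⊢
      omega
  · obtain ⟨s', t', hs', ht', e', hf', hk', -⟩ := h1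
    refine key s' t' hs' ht' e' hf' ?_
    rw [Perm.sign_mul]
    rcases Int.units_eq_one_or (sign σ) with a | a <;>
      rcases Int.units_eq_one_or (sign τ) with b | b
    · rw [a] at hk; rw [b] at hk'; rw [a, b]; simp at hk hk' ⊢; omega
    · rw [a] at hk; rw [b] at hk'; rw [a, b]; simp at hk hk' ⊢; omega
    · rw [a] at hk; rw [b] at hk'; rw [a, b]; simp at hk hk' ⊢; omega
    · exact absurd ⟨a, b⟩ hb

theorem fac (x : Perm Ω) : Fac x := by
  suffices h : Fac x ∧ Fac x⁻¹ from h.1
  induction x using cycle_induction_on with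
  | base_one =>
    have : Fac (1 : Perm Ω) := ⟨1, 1, by simp, by simp, by simp, by simp, by simp, by simp⟩
    exact ⟨this, by simpa using this⟩
  | base_cycles σ h => exact ⟨fac_cycle h, fac_cycle h.inv⟩
  | induction_disjoint σ τ hd hc _ ih =>
    refine ⟨fac_step hd hc ih.1 ih.2, ?_⟩
    rw [mul_inv_rev, ← (hd.inv_left.inv_right).commute.eq]
    exact fac_step hd.inv_left.inv_right hc.inv ih.2 (by simpa using ih.1)

/-- `x` is a commutator `[α, β]` with `α` even having two cycles of length two -/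
def Good (x : Perm Ω) : Prop :=
  ∃ (α β : Perm Ω) (p q r s : Ω), [p, q, r, s].Nodup ∧ α p = q ∧ α q = p ∧ α r = s ∧ α s = r ∧
    sign α = 1 ∧ x = α * (β * α⁻¹ * β⁻¹)

theorem good_inv {s t : Perm Ω} (hs : s * s = 1) (ht : t * t = 1)
    (hc : s.support.card = t.support.card) (h1 : sign s = 1) {a : Ω} (ha : s a ≠ a) :
    Good (s * t) := by
  obtain ⟨c, hc1, h2, h3⟩ := exists_second hs h1 ha
  obtain ⟨κ, -, e⟩ := exists_even_conj hs ht hc
  exact ⟨s, κ, a, s a, c, s c, nodup_inv hs ha hc1 h2 h3, rfl, inv_apply2 hs a, rfl,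
    inv_apply2 hs c, h1, by rw [inv_eq_of_mul_eq_one_right hs, e]⟩

theorem good_dbl {a b c d a' b' c' d' : Ω} (hn : [a, b, c, d].Nodup)
    (hn' : [a', b', c', d'].Nodup) :
    Good (swap a b * swap c d * (swap a' b' * swap c' d')) := by
  obtain ⟨κ, -, e⟩ := exists_even_map hn hn'
  have h2 := dbl_mul_self hn
  have hn0 := hn
  simp only [List.nodup_cons, List.mem_cons, List.not_mem_nil, or_false, not_or] at hn0
  obtain ⟨⟨hab, hac, had⟩, ⟨hbc, hbd⟩, hcd, -⟩ := hn0
  refine ⟨swap a b * swap c d, κ, a, b, c, d, hn, ?_, ?_, ?_, ?_, by simp [hab, hcd],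
    by rw [inv_eq_of_mul_eq_one_right h2, ← e]⟩
  all_goals
    simp only [Perm.mul_apply, swap_apply_def]
    split_ifs <;> simp_all

theorem cyc_three {s : Perm Ω} (hs : s * s = 1) {p q : Ω} (hp : s p = p) (hq : s q ≠ q) :
    (swap q p * s).cycleType = {3} + (swap q (s q) * s).cycleType := by
  have hpq : q ≠ p := fun e => hq (by rw [e, hp])
  have hp2 : p ≠ s q := fun e => hq (by rw [← e, ← inv_apply2 hs q, ← e, hp])
  have h3 := isThreeCycle_swap_mul_swap_same hpq hq.symm hp2
  have e : swap q p * s = (swap q p * swap q (s q)) * (swap q (s q) * s) := by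
    rw [mul_assoc, ← mul_assoc (swap q (s q)), swap_mul_self, one_mul]
  rw [e, Disjoint.cycleType_mul, h3]
  intro i
  by_cases h1 : i = q
  · right; rw [h1]; simp
  by_cases h2 : i = s q
  · right; rw [h2, Perm.mul_apply, inv_apply2 hs]; simp
  by_cases h3 : i = p
  · right; rw [h3, Perm.mul_apply, hp, swap_apply_of_ne_of_ne hpq.symm hp2]
  · left; rw [Perm.mul_apply, swap_apply_of_ne_of_ne h1 h2, swap_apply_of_ne_of_ne h1 h3]

theorem good_odd {s t : Perm Ω} (hs : s * s = 1) (ht : t * t = 1)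
    (hc : s.support.card = t.support.card) (h1 : sign s = -1) {p q : Ω} (hp : s p = p)
    (hp' : t p ≠ p) (hq : t q = q) (hq' : s q ≠ q) (h0 : swap q (s q) * s ≠ 1) :
    Good (s * t) := by
  have hpq : q ≠ p := fun e => hq' (by rw [e, hp])
  have c1 := card_peel1 hs hq'
  have c2 := card_peel1 ht hp'
  have s2 := peel1_sq hs q
  obtain ⟨κ, -, e⟩ := exists_even_conj s2 (peel1_sq ht p) (by omega)
  have ec : (swap q p * s).cycleType = (swap p q * t).cycleType := by
    rw [cyc_three hs hp hq', cyc_three ht hq hp', ← e, cycleType_conj]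
  obtain ⟨β, hβ⟩ := isConj_iff.1 (isConj_iff_cycleType_eq.2 ec)
  obtain ⟨a, ha⟩ : ∃ a, (swap q (s q) * s) a ≠ a := by
    by_contra hn; exact h0 (Equiv.ext fun x => by_contra fun e => hn ⟨x, e⟩)
  have sg : sign (swap q (s q) * s) = 1 := by
    rw [Perm.sign_mul, sign_swap hq'.symm, h1]; simp
  obtain ⟨c, hc1, h2, h3⟩ := exists_second s2 sg ha
  have key : ∀ i, (swap q (s q) * s) i ≠ i → (s * swap q p) i = (swap q (s q) * s) i := by
    intro i hi
    have hm : i ∈ (swap q (s q) * s).support := mem_support.2 hi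
    rw [support_peel1 hs] at hm
    simp only [Finset.mem_sdiff, mem_support, Finset.mem_insert, Finset.mem_singleton,
      not_or] at hm
    obtain ⟨m1, m2, m3⟩ := hm
    have m4 : i ≠ p := fun e => m1 (by rw [e, hp])
    rw [Perm.mul_apply, Perm.mul_apply, swap_apply_of_ne_of_ne m2 m4, swap_apply_of_ne_of_ne]
    · intro e; exact m3 (by rw [← e, inv_apply2 hs])
    · intro e; exact m2 (s.injective e)
  have key2 : ∀ i, (swap q (s q) * s) i ≠ i →
      (s * swap q p) ((swap q (s q) * s) i) = i := by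
    intro i hi
    rw [key _ (by rw [inv_apply2 s2]; exact hi.symm), inv_apply2 s2]
  refine ⟨s * swap q p, β, a, _, c, _, nodup_inv s2 ha hc1 h2 h3, key a ha, key2 a ha, key c hc1,
    key2 c hc1, by rw [Perm.sign_mul, sign_swap hpq, h1]; simp, ?_⟩
  rw [mul_inv_rev, swap_inv, inv_eq_of_mul_eq_one_right hs, hβ, swap_comm p q, mul_assoc,
    ← mul_assoc (swap q p), swap_mul_self, one_mul]

theorem dbl_eq {a b c d : Ω} (hn : [a, b, c, d].Nodup) :
    swap a b * swap c d = swap a c * swap b d * (swap a d * swap b c) := by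
  simp only [List.nodup_cons, List.mem_cons, List.not_mem_nil, or_false, not_or] at hn
  obtain ⟨⟨hab, hac, had⟩, ⟨hbc, hbd⟩, hcd, -⟩ := hn
  have := Ne.symm hab; have := Ne.symm hac; have := Ne.symm had; have := Ne.symm hbc
  have := Ne.symm hbd; have := Ne.symm hcd
  ext i
  by_cases h1 : i = a
  · subst h1; simp [swap_apply_of_ne_of_ne, *]
  by_cases h2 : i = b
  · subst h2; simp [swap_apply_of_ne_of_ne, *]
  by_cases h3 : i = c
  · subst h3; simp [swap_apply_of_ne_of_ne, *]
  by_cases h4 : i = d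
  · subst h4; simp [swap_apply_of_ne_of_ne, *]
  simp [swap_apply_of_ne_of_ne, *]

theorem dbl_fix {a b c d : Ω} (hn : [a, b, c, d].Nodup) :
    (swap a b * swap c d) b = a ∧ (swap a b * swap c d) a = b ∧ (swap a b * swap c d) d = c ∧
      (swap a b * swap c d) c = d := by
  simp only [List.nodup_cons, List.mem_cons, List.not_mem_nil, or_false, not_or] at hn
  obtain ⟨⟨hab, hac, had⟩, ⟨hbc, hbd⟩, hcd, -⟩ := hn
  simp only [Perm.mul_apply, swap_apply_def]
  refine ⟨?_, ?_, ?_, ?_⟩ <;> split_ifs <;> simp_all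

theorem exists_two (h5 : 5 ≤ Fintype.card Ω) (a b c : Ω) :
    ∃ u v, u ≠ v ∧ u ≠ a ∧ u ≠ b ∧ u ≠ c ∧ v ≠ a ∧ v ≠ b ∧ v ≠ c := by
  have h1 : ({a, b, c} : Finset Ω).card ≤ 3 := Finset.card_le_three
  have h2 : 1 < ({a, b, c} : Finset Ω)ᶜ.card := by rw [Finset.card_compl]; omega
  obtain ⟨u, hu, v, hv, huv⟩ := Finset.one_lt_card.1 h2
  simp only [Finset.mem_compl, Finset.mem_insert, Finset.mem_singleton, not_or] at hu hv
  exact ⟨u, v, huv, hu.1, hu.2.1, hu.2.2, hv.1, hv.2.1, hv.2.2⟩

theorem good (h5 : 5 ≤ Fintype.card Ω) {x : Perm Ω} (hx : sign x = 1) : Good x := by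
  obtain ⟨s, t, hs, ht, e, hf, hc, hq⟩ := fac x
  rw [if_pos hx, add_zero] at hc
  by_cases h1 : x = 1
  · obtain ⟨a, b, hab⟩ := Fintype.exists_pair_of_one_lt_card (α := Ω) (by omega)
    obtain ⟨u, v, h1', h2, h3, -, h5, h6, -⟩ := exists_two h5 a b b
    have hn : [a, b, u, v].Nodup := by simp [hab, h1', h2.symm, h3.symm, h5.symm, h6.symm]
    rw [h1, ← dbl_mul_self hn]
    exact good_dbl hn hn
  obtain ⟨q, q1, q2⟩ := hq h1
  rw [e]
  rcases Int.units_eq_one_or (sign s) with h | h
  · exact good_inv hs ht hc h q2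
  obtain ⟨p, p1, p2⟩ : ∃ p, s p = p ∧ t p ≠ p := by
    by_contra hn
    have : t.support ⊆ s.support := fun i hi =>
      mem_support.2 fun e => hn ⟨i, e, mem_support.1 hi⟩
    have := Finset.eq_of_subset_of_card_le this hc.le
    exact (mem_support.1 (this ▸ mem_support.2 q2 : q ∈ t.support)) q1
  by_cases h0 : swap q (s q) * s = 1
  swap
  · exact good_odd hs ht hc h p1 p2 q1 q2 h0
  have c1 := card_peel1 hs q2
  have c2 := card_peel1 ht p2
  rw [h0, support_one, Finset.card_empty] at c1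
  have h0' : swap p (t p) * t = 1 := card_support_eq_zero.1 (by omega)
  have hpq : q ≠ p := fun e => q2 (by rw [e, p1])
  have hp2 : p ≠ s q := fun e => q2 (by rw [← e, ← inv_apply2 hs q, ← e, p1])
  have hq2 : q ≠ t p := fun e => p2 (by rw [← e, ← inv_apply2 ht p, ← e, q1])
  have es : s = swap q (s q) := by rw [← swap_inv]; exact eq_inv_of_mul_eq_one_right h0
  have et : t = swap p (t p) := by rw [← swap_inv]; exact eq_inv_of_mul_eq_one_right h0'
  rw [es, et]
  generalize s q = q' at q2 hp2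
  generalize t p = p' at p2 hq2
  by_cases h4 : q' = p'
  · subst h4
    obtain ⟨u, v, a1, a2, a3, a4, a5, a6, a7⟩ := exists_two h5 p q q'
    have : swap q q' * swap p q' = swap q q' * swap u v * (swap u v * swap p q') := by
      rw [mul_assoc, ← mul_assoc (swap u v), swap_mul_self, one_mul]
    rw [this]
    exact good_dbl (by simp [q2.symm, a1, a3.symm, a4.symm, a6.symm, a7.symm])
      (by simp [a1, a2, a4, a5, a7, hp2])
  · rw [dbl_eq (a := q) (b := q') (c := p) (d := p')
      (by simp [hpq, q2.symm, hq2, hp2.symm, p2.symm, h4])]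
    exact good_dbl (by simp [hpq, q2.symm, hq2, hp2, p2.symm, h4])
      (by simp [hpq, q2.symm, hq2, hp2.symm, p2, Ne.symm h4])

variable {H : Type*} [Group H] {π : H →* Perm Ω} {t : H}

theorem conj_mul_t (D : DC π t) {z : H} {a b c d : Ω} (hn : [a, b, c, d].Nodup)
    (h1 : π z a = b) (h2 : π z b = a) (h3 : π z c = d) (h4 : π z d = c) :
    ∃ k, k * z * k⁻¹ = z * t := by
  have hn' := hn
  simp only [List.nodup_cons, List.mem_cons, List.not_mem_nil, or_false, not_or] at hn'
  obtain ⟨⟨hab, hac, had⟩, ⟨hbc, hbd⟩, hcd, -⟩ := hn'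
  obtain ⟨k, hk⟩ := D.lift2 hab hcd
  have f : π (k * z) a = a ∧ π (k * z) b = b ∧ π (k * z) c = c ∧ π (k * z) d = d := by
    rw [map_mul, Perm.mul_apply, Perm.mul_apply, Perm.mul_apply, Perm.mul_apply, hk, h1, h2, h3,
      h4]
    exact dbl_fix hn
  obtain ⟨f1, f2, f3, f4⟩ := f
  obtain ⟨l, hl⟩ := D.lift2 hac hbd
  have n1 : [a, c, b, d].Nodup := by simp [hab, hac, had, Ne.symm hbc, hbd, hcd]
  have n2 : [a, d, b, c].Nodup := by simp [hab, hac, had, hbc, Ne.symm hbd, Ne.symm hcd]
  have e1 := D.comm_of_fix n1 hl f1 f3 f2 f4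
  have e2 := D.anti (D.q k _ _ _ _ hn hk) (D.q l _ _ _ _ n1 hl) (D.q _ _ _ _ _ n2 (by
    rw [map_mul, hk, hl, dbl_eq n2, swap_comm d c, swap_comm d b]))
  refine ⟨l, ?_⟩
  rw [mul_inv_eq_iff_eq_mul, ← mul_left_cancel_iff (a := k), ← mul_assoc, e2, ← mul_assoc,
    ← mul_assoc, mul_assoc (k * z), ← D.cen, ← mul_assoc, e1]
  simp only [mul_assoc, D.cen z]

theorem comm (D : DC π t) (h5 : 5 ≤ Fintype.card Ω) (g : H) :
    ∃ a b : H, a * b * a⁻¹ * b⁻¹ = g := by
  obtain ⟨α, β, p, q, r, s, hn, h1, h2, h3, h4, hα, e⟩ := good h5 (D.sgn g)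
  have hpq : p ≠ q := by
    intro e; simp [e] at hn
  obtain ⟨β', hβ, e'⟩ : ∃ β' : Perm Ω, sign β' = 1 ∧ π g = α * (β' * α⁻¹ * β'⁻¹) := by
    rcases Int.units_eq_one_or (sign β) with h | h
    · exact ⟨β, h, e⟩
    · refine ⟨β * swap p q, by rw [Perm.sign_mul, sign_swap hpq, h]; simp, ?_⟩
      have : α * swap p q * α⁻¹ = swap p q := by rw [← swap_apply_apply, h1, h2, swap_comm]
      have h' : swap p q * α⁻¹ * (swap p q)⁻¹ = α⁻¹ := by
        rw [mul_inv_eq_iff_eq_mul, ← inv_mul_cancel_left α (swap p q * α⁻¹), ← mul_assoc α, this]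
      rw [e]
      calc _ = α * (β * (swap p q * α⁻¹ * (swap p q)⁻¹) * β⁻¹) := by rw [h']
        _ = _ := by group
  obtain ⟨a, rfl⟩ := D.surj α hα
  obtain ⟨b, rfl⟩ := D.surj β' hβ
  rcases D.eq_or (x := g) (y := a * b * a⁻¹ * b⁻¹) (by simp [e', mul_assoc]) with e1 | e1
  · exact ⟨a, b, e1.symm⟩
  · obtain ⟨k, hk⟩ := conj_mul_t D hn h1 h2 h3 h4
    refine ⟨a, b * k, ?_⟩
    have : k * a⁻¹ * k⁻¹ = t * a⁻¹ := by
      rw [← D.inv_t, ← mul_inv_rev, ← hk]; group
    calc _ = a * b * (k * a⁻¹ * k⁻¹) * b⁻¹ := by group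
      _ = g := by
        rw [this, e1]; simp only [mul_assoc]; rw [← D.cen]; simp only [mul_assoc]

end CF.Schur.DCC
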