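import Cfsg.Agent.Schur.AltB
import Cfsg.Agent.Schur.CovM
import Cfsg.Agent.Schur.ThD
import Cfsg.Agent.Dce.Th.Main

set_option autoImplicit false
set_option maxRecDepth 1000000
set_option maxHeartbeats 0
set_option Elab.async false

namespace CF.Schur.Th

open CF.Comp CF.Schur.Pc Cfsg CF.Dce CF.Dce.Th

/-- the table of the letters: the generators, their inverses and the values `Y` of a program -/
noncomputable def tb (Y : List ℕ) (x : ℕ) : ℕ :=
  Bool.rec (Bool.rec (force (Nat.div (Nat.sub x 17) 2) (nth 0 Y)) 0 (Nat.beq (Nat.mod x 2) 0)) (nth 0 X x) (Nat.ble x 16)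

/-- a step of the program -/
noncomputable def lay (Y : List ℕ) (ws : List (List ℕ)) (j : ℕ) : Bool :=
  Nat.beq (evW P.mulR P.one (tb Y) (nth [] ws j)) (nth 0 Y j)

theorem tb_even (Y : List ℕ) (j : ℕ) : tb Y (2 * (8 + j) + 2) = 0 := by
  rw [tb, ble_false_iff.2 (by omega), beq_iff.2 (show Nat.mod (2 * (8 + j) + 2) 2 = 0 from (by omega : _ % 2 = 0))]

theorem tb_odd (Y : List ℕ) (j : ℕ) : tb Y (2 * (8 + j) + 1) = nth 0 Y j := by
  rw [tb, ble_false_iff.2 (by omega), beq_false_iff.2 (show Nat.mod (2 * (8 + j) + 1) 2 ≠ 0 from (by omega : _ % 2 ≠ 0)),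
    force_eq]
  exact congrArg _ (show (2 * (8 + j) + 1 - 17) / 2 = j by omega)

theorem tbl_lay {Y : List ℕ} {ws : List (List ℕ)} {l : ℕ} (h1 : slpLe ws 8 = true) (h2 : llen ws = l)
    (h3 : llen Y = l) (h : ∀ j < l, lay Y ws j = true) :
    Tbl 3 5 248 P.mulR P.one (full 307520) ι (slp b ws 8) (tb Y) := by
  rw [llen_eq] at h2 h3
  have e : ∀ {w}, (∀ x ∈ w, IsZ 3 5 248 (tb Y x) (ι (evL (slp b ws 8) x))) →
      IsZ 3 5 248 (evW P.mulR P.one (tb Y) w) (ι (ev (slp b ws 8) w)) := fun h =>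
    rp_evW (Rp := fun x a => IsZ 3 5 248 x (ι a)) (map_one ι ▸ MP.isM_one.isZ)
      (fun h h' => map_mul ι _ _ ▸ MP.isZ_mul h h') h
  have key : ∀ j, ∀ x ≤ 2 * (8 + j), IsZ 3 5 248 (tb Y x) (ι (evL (slp b ws 8) x)) := by
    intro j
    induction j with
    | zero =>
      intro x hx
      rw [tb, ble_iff.2 hx, evL_congr (f := slp b ws 8) (m := 8) (fun i hi => slp_lt b ws hi) hx]
      exact (b_isM x hx).isZ
    | succ j ih =>
      intro x hx
      rcases (by omega : x ≤ 2 * (8 + j) ∨ x = 2 * (8 + j) + 1 ∨ x = 2 * (8 + j) + 2) with hx | rfl | rfl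
      · exact ih x hx
      · rw [tb_odd, evL_odd]
        rcases lt_or_ge j l with hj | hj
        · rw [slp_add' b h1 (h2 ▸ hj), ← beq_iff.1 (h j hj)]
          exact e fun y hy => ih y (slpLe_iff.1 h1 j (h2 ▸ hj) y hy)
        · rw [nth_of_le _ (h3 ▸ hj)]
          exact MP.isZ_zero _
      · exact tb_even Y j ▸ MP.isZ_zero _
  exact ⟨fun _ => e fun x _ => key x x (by omega), ι_inj, by decide, by decide, rfl⟩

theorem mdl : type_of% (mdl_of_exact exact (slp_mem mem0 _ _)) := mdl_of_exact exact (slp_mem mem0 _ _)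

noncomputable def Wx7 : List (List Nat) := [[(nat_lit 16), (nat_lit 40), (nat_lit 16), (nat_lit 16), (nat_lit 35), (nat_lit 42), (nat_lit 35), (nat_lit 39), (nat_lit 35), (nat_lit 43), (nat_lit 33), (nat_lit 39), (nat_lit 44)],
  [(nat_lit 36), (nat_lit 38), (nat_lit 40), (nat_lit 15), (nat_lit 15), (nat_lit 35), (nat_lit 40), (nat_lit 36), (nat_lit 43), (nat_lit 33), (nat_lit 42)],
  [(nat_lit 35), (nat_lit 16), (nat_lit 16), (nat_lit 35), (nat_lit 35), (nat_lit 43), (nat_lit 33), (nat_lit 35), (nat_lit 39), (nat_lit 38), (nat_lit 33), (nat_lit 42), (nat_lit 40)]]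

theorem qx7_0 : allFrom (preRow (lapp P0 P1) Nx7 Wx7 819 10) 0 3 = true := by decide +kernel

theorem qx7 : ∀ j < 3, preRow (lapp P0 P1) Nx7 Wx7 819 10 j = true := by
  have h : ∀ j < 0, preRow (lapp P0 P1) Nx7 Wx7 819 10 j = true := by simp
  have h := forall_lt_add h (allFrom_iff.1 qx7_0)
  exact h

theorem wx7 : wfAll Nx7 819 = true := by decide +kernel

noncomputable def Px7 : Dat := ⟨(nat_lit 7), (nat_lit 2), (nat_lit 8), (nat_lit 2), (nat_lit 5),
  (BT.node (nat_lit 1) (BT.leaf []) (BT.node (nat_lit 2) (BT.leaf [(nat_lit 1)]) (BT.leaf []))),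
  [⟨(nat_lit 0), [(nat_lit 0)], [(nat_lit 1), (nat_lit 1), (nat_lit 1), (nat_lit 1), (nat_lit 1), (nat_lit 1)]⟩,
  ⟨(nat_lit 0), [(nat_lit 1)], [(nat_lit 0), (nat_lit 0), (nat_lit 1), (nat_lit 1), (nat_lit 1), (nat_lit 1)]⟩]⟩

noncomputable def Xx7_0 : List Test := [⟨(nat_lit 1), [(nat_lit 0), (nat_lit 0), (nat_lit 0), (nat_lit 0), (nat_lit 0), (nat_lit 0), (nat_lit 0)], [], (nat_lit 0x60600060000)⟩,
  ⟨(nat_lit 1), [(nat_lit 1), (nat_lit 0)], [(nat_lit 0), (nat_lit 1)], (nat_lit 0x10001000000)⟩,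
  ⟨(nat_lit 1), [(nat_lit 1), (nat_lit 1), (nat_lit 1), (nat_lit 1), (nat_lit 1), (nat_lit 1), (nat_lit 1)], [], (nat_lit 0x30300020000)⟩]

noncomputable def cx7 : Cert := ⟨Px7, (nat_lit 0), Xx7_0,
  [],
  [(nat_lit 0),
  (nat_lit 0)],
  (BT.node (nat_lit 1) (BT.leaf (nat_lit 52)) (BT.node (nat_lit 2) (BT.leaf (nat_lit 42)) (BT.leaf (nat_lit 299))))⟩

theorem okx7 : cx7.OK := Cert.ok_of_check (by decide) (by decide +kernel)


noncomputable def Lx7 : List Lvl := [⟨(nat_lit 0), [[(nat_lit 1), (nat_lit 3), (nat_lit 3), (nat_lit 3), (nat_lit 3), (nat_lit 3)],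
  [(nat_lit 1), (nat_lit 3), (nat_lit 3), (nat_lit 3), (nat_lit 3), (nat_lit 3)],
  [(nat_lit 1), (nat_lit 3), (nat_lit 3), (nat_lit 3), (nat_lit 3), (nat_lit 3)],
  [(nat_lit 1), (nat_lit 3), (nat_lit 3), (nat_lit 3), (nat_lit 3), (nat_lit 3)],
  [(nat_lit 1), (nat_lit 3), (nat_lit 3), (nat_lit 3), (nat_lit 3), (nat_lit 3)],
  [(nat_lit 1), (nat_lit 3), (nat_lit 3), (nat_lit 3), (nat_lit 3), (nat_lit 3)],
  [(nat_lit 3)],
  [(nat_lit 3)],
  [(nat_lit 3)],
  [(nat_lit 3)],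
  [(nat_lit 3)],
  [(nat_lit 3)]], (nat_lit 1)⟩]


noncomputable def gx7 : List (List Nat) := [[(nat_lit 5)]]

theorem hx7_0 : allFrom (relRow (sameW Nx7 819 10) 0 Px7) 0 2 = true := by decide +kernel

theorem hx7 : ∀ j < 2, relRow (sameW Nx7 819 10) 0 Px7 j = true := by
  have h : ∀ j < 0, relRow (sameW Nx7 819 10) 0 Px7 j = true := by simp
  have h := forall_lt_add h (allFrom_iff.1 hx7_0)
  exact h

theorem px7 : lall (prAt (sameW Nx7 819 10) 0 gx7) Px7.prs = true := by decide +kernel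

theorem lx7 : lowOK Nx7 819 0 Px7 Lx7 = true := by decide +kernel

theorem pbdx7 : PBd K 7 1 :=
  have h := (mdl.new (k := 10) (l := 3) (by decide) wx7 (by decide +kernel) (by decide +kernel) qx7)
  h.pbd (h.sameW (k := 10) (by decide)) okx7 (gs := gx7) hx7 px7 lx7 card_K (by decide) rfl rfl

theorem pbd7 : PBd L 7 1 := PBd.of_sub (by decide) _ (by rw [map_K, index_K]; decide) (pbdx7.congr (eK le_rfl))
end CF.Schur.Th
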